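import Cfsg.Agent.H313.AltC
import Cfsg.Agent.H306.Kon.Alt

/-!
# Involutions of alternating groups: conjugacy, four-groups (helper306, for S3218)
-/

set_option autoImplicit false
set_option linter.unusedSectionVars false

namespace Cfsg.Agent.H306.Kon

open Equiv Equiv.Perm

section

variable {Ω : Type*} [DecidableEq Ω] [Fintype Ω]

/-- involutions of an alternating group moving the same number of points are conjugate -/
theorem isConj_alt {σ τ : alternatingGroup Ω} (hσ : orderOf σ = 2) (hτ : orderOf τ = 2)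
    (h : (σ : Perm Ω).support.card = (τ : Perm Ω).support.card) : IsConj σ τ := by
  have hσ' : orderOf (σ : Perm Ω) = 2 := by rw [Subgroup.orderOf_coe]; exact hσ
  have hτ' : orderOf (τ : Perm Ω) = 2 := by rw [Subgroup.orderOf_coe]; exact hτ
  have hss : (σ : Perm Ω) * σ = 1 := by rw [← pow_two, ← hσ']; exact pow_orderOf_eq_one _
  obtain ⟨m, hm⟩ := cycleType_prime_order (σ := (σ : Perm Ω)) (by rw [hσ']; exact Nat.prime_two)
  rw [hσ'] at hm
  have h1 := sum_cycleType (σ : Perm Ω)
  rw [hm, Multiset.sum_replicate] at h1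
  have hcs := cycleType_of_order_two hσ' (k := m + 1) (by rw [← h1]; simp [mul_comm])
  have hct := cycleType_of_order_two hτ' (k := m + 1) (by rw [← h, ← h1]; simp [mul_comm])
  have hc : IsConj (σ : Perm Ω) (τ : Perm Ω) := by rw [isConj_iff_cycleType_eq, hcs, hct]
  obtain ⟨g, hg⟩ := isConj_iff.1 hc
  rw [isConj_iff]
  rcases Int.units_eq_one_or (sign g) with hs | hs
  · exact ⟨⟨g, mem_alternatingGroup.2 hs⟩, Subtype.ext hg⟩
  · have hne : (σ : Perm Ω) ≠ 1 := by
      intro h2; rw [h2, orderOf_one] at hσ'; omega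
    obtain ⟨x, hx⟩ : ∃ x, (σ : Perm Ω) x ≠ x := by
      by_contra hc
      push Not at hc
      exact hne (Perm.ext hc)
    have hsw := Cfsg.Agent.H313.Alt.tr_comm hss x
    refine ⟨⟨g * Cfsg.Agent.H313.Alt.tr σ x, ?_⟩, Subtype.ext ?_⟩
    · rw [mem_alternatingGroup, Perm.sign_mul, hs, Cfsg.Agent.H313.Alt.sign_tr hx]; rfl
    · change g * Cfsg.Agent.H313.Alt.tr σ x * σ * (g * Cfsg.Agent.H313.Alt.tr σ x)⁻¹ = τ
      rw [mul_assoc g, hsw, ← hg]; group

/-- the number of points moved by an even involution is divisible by four -/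
theorem four_dvd_support {σ : Perm Ω} (hσ : orderOf σ = 2) (hs : sign σ = 1) : 4 ∣ σ.support.card := by
  obtain ⟨m, hm⟩ := cycleType_prime_order (σ := σ) (by rw [hσ]; exact Nat.prime_two)
  rw [hσ] at hm
  have h1 := sum_cycleType σ
  rw [hm, Multiset.sum_replicate] at h1
  have h2 := sign_of_cycleType σ
  rw [hs, hm, Multiset.sum_replicate, Multiset.card_replicate] at h2
  have h3 : Even (m + 1) := by
    rcases Nat.even_or_odd (m + 1) with h | h
    · exact h
    · exfalso
      have h4 : Odd ((m + 1) • 2 + (m + 1)) := by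
        rw [smul_eq_mul]
        exact (Even.mul_left even_two _).add_odd h
      rw [h4.neg_one_pow] at h2
      exact absurd h2 (by decide)
  rw [← h1]
  obtain ⟨k, hk⟩ := h3
  exact ⟨k, by rw [hk, smul_eq_mul]; ring⟩

end

section

variable (k r : ℕ)

/-- the model for four-groups -/
abbrev Y : Type := (Fin k × (ZMod 2 × ZMod 2)) ⊕ Fin r

/-- translation -/
def Tv (v : ZMod 2 × ZMod 2) : Perm (Y k r) :=
  Equiv.sumCongr (Equiv.prodCongrRight fun _ => Equiv.addLeft v) (Equiv.refl _)

theorem Tv_inl (v : ZMod 2 × ZMod 2) (i : Fin k) (w : ZMod 2 × ZMod 2) :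
    Tv k r v (Sum.inl (i, w)) = Sum.inl (i, v + w) := rfl

theorem Tv_inr (v : ZMod 2 × ZMod 2) (i : Fin r) : Tv k r v (Sum.inr i) = Sum.inr i := rfl

theorem Tv_mul (v w : ZMod 2 × ZMod 2) : Tv k r v * Tv k r w = Tv k r (v + w) := by
  apply Perm.ext
  rintro (⟨i, x⟩ | i)
  · rw [Perm.mul_apply, Tv_inl, Tv_inl, Tv_inl, add_assoc]
  · rw [Perm.mul_apply, Tv_inr, Tv_inr, Tv_inr]

theorem Tv_zero : Tv k r 0 = 1 := by
  apply Perm.ext
  rintro (⟨i, x⟩ | i)
  · rw [Tv_inl, zero_add]; rfl
  · rfl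

theorem Tv_ne (hk : 1 ≤ k) {v : ZMod 2 × ZMod 2} (hv : v ≠ 0) : Tv k r v ≠ 1 := by
  intro h
  have h1 := congrArg (fun p : Perm (Y k r) => p (Sum.inl (⟨0, by omega⟩, 0))) h
  simp only [Tv_inl, Perm.one_apply, Sum.inl.injEq, Prod.mk.injEq, true_and, add_zero] at h1
  exact hv h1

theorem orderOf_Tv (hk : 1 ≤ k) {v : ZMod 2 × ZMod 2} (hv : v ≠ 0) : orderOf (Tv k r v) = 2 := by
  apply orderOf_eq_prime
  · rw [pow_two, Tv_mul]
    have : v + v = 0 := by revert v; decide
    rw [this, Tv_zero]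
  · exact Tv_ne k r hk hv

theorem card_support_Tv {v : ZMod 2 × ZMod 2} (hv : v ≠ 0) : (Tv k r v).support.card = 2 * (2 * k) := by
  have h1 : (Tv k r v).support = Finset.univ.map (Function.Embedding.inl : _ ↪ Y k r) := by
    ext x
    rw [mem_support, Finset.mem_map]
    rcases x with ⟨i, x⟩ | i
    · rw [Tv_inl]
      refine ⟨fun _ => ⟨(i, x), Finset.mem_univ _, rfl⟩, fun _ h => hv ?_⟩
      simpa using h
    · rw [Tv_inr]
      refine ⟨fun h => absurd rfl h, ?_⟩
      rintro ⟨y, -, hy⟩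
      exact absurd hy (by simp)
  rw [h1, Finset.card_map, Finset.card_univ, Fintype.card_prod, Fintype.card_prod, Fintype.card_fin, ZMod.card]
  ring

end

/-- every involution of an alternating group lies in a four-group all whose involutions are conjugate to it -/
theorem exists_four {m : ℕ} (τ : alternatingGroup (Fin m)) (hτ : orderOf τ = 2) :
    ∃ τ' : alternatingGroup (Fin m), orderOf τ' = 2 ∧ τ' ≠ τ ∧ τ * τ' = τ' * τ ∧ IsConj τ τ' ∧ IsConj τ (τ * τ') := by
  have hτ' : orderOf (τ : Perm (Fin m)) = 2 := by rw [Subgroup.orderOf_coe]; exact hτ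
  obtain ⟨k, hk⟩ := four_dvd_support hτ' (mem_alternatingGroup.1 τ.2)
  have hle : 4 * k ≤ m := by
    rw [← hk]; exact (Finset.card_le_univ _).trans (by simp)
  have hk1 : 1 ≤ k := by
    rcases Nat.eq_zero_or_pos k with h | h
    · exfalso
      rw [h, mul_zero, Finset.card_eq_zero, support_eq_empty_iff] at hk
      rw [hk, orderOf_one] at hτ'
      omega
    · exact h
  obtain ⟨r, rfl⟩ := Nat.exists_eq_add_of_le hle
  have e : Fin (4 * k + r) ≃ Y k r := Fintype.equivOfCardEq (by
    rw [Fintype.card_fin, Fintype.card_sum, Fintype.card_prod, Fintype.card_prod, Fintype.card_fin, Fintype.card_fin, ZMod.card]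
    ring)
  obtain ⟨f, hf⟩ := exists_equiv_conj (k := 2 * k) e hτ' (orderOf_Tv k r hk1 (v := (1, 0)) (by decide))
    (by rw [hk]; ring) (card_support_Tv k r (by decide))
  -- transport
  let c : Perm (Y k r) ≃* Perm (Fin (4 * k + r)) := f.symm.permCongrHom
  have hc : ∀ q x, c q x = f.symm (q (f x)) := fun q x => rfl
  have hcτ : c (Tv k r (1, 0)) = τ := by
    apply Perm.ext
    intro x
    rw [hc, ← hf, Equiv.symm_apply_apply]
  have hcs : ∀ v : ZMod 2 × ZMod 2, v ≠ 0 → (c (Tv k r v)).support.card = 4 * k := by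
    intro v hv
    have h1 : (c (Tv k r v)).support.card = (Tv k r v).support.card := by
      refine (Finset.card_bij (fun a _ => f a) ?_ ?_ ?_)
      · intro a ha
        rw [mem_support] at ha ⊢
        intro h3
        apply ha
        rw [hc, h3, Equiv.symm_apply_apply]
      · intro a _ b _ hab
        exact f.injective hab
      · intro b hb
        refine ⟨f.symm b, ?_, by simp⟩
        rw [mem_support] at hb ⊢
        intro h3
        apply hb
        rw [hc, Equiv.apply_symm_apply] at h3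
        exact f.symm.injective h3
    rw [h1, card_support_Tv k r hv]; ring
  have hco : ∀ v : ZMod 2 × ZMod 2, v ≠ 0 → orderOf (c (Tv k r v)) = 2 := by
    intro v hv
    rw [c.orderOf_eq, orderOf_Tv k r hk1 hv]
  have hsign : ∀ v : ZMod 2 × ZMod 2, v ≠ 0 → c (Tv k r v) ∈ alternatingGroup (Fin (4 * k + r)) := by
    intro v hv
    rw [mem_alternatingGroup, sign_of_cycleType, cycleType_of_order_two (hco v hv) (k := 2 * k) (by rw [hcs v hv]; ring),
      Multiset.sum_replicate, Multiset.card_replicate]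
    have : Even ((2 * k) • 2 + 2 * k) := by
      rw [smul_eq_mul]
      exact (Even.mul_left even_two _).add (even_two_mul k)
    exact this.neg_one_pow
  have h01 : ((0, 1) : ZMod 2 × ZMod 2) ≠ 0 := by decide
  have h11 : ((1, 1) : ZMod 2 × ZMod 2) ≠ 0 := by decide
  have hm : c (Tv k r (1, 0)) * c (Tv k r (0, 1)) = c (Tv k r (1, 1)) := by
    rw [← map_mul, Tv_mul]; rfl
  have hm' : c (Tv k r (0, 1)) * c (Tv k r (1, 0)) = c (Tv k r (1, 1)) := by
    rw [← map_mul, Tv_mul]; rfl
  have ho : orderOf (⟨c (Tv k r (0, 1)), hsign _ h01⟩ : alternatingGroup (Fin (4 * k + r))) = 2 := by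
    rw [← Subgroup.orderOf_coe]; exact hco _ h01
  have hmul : τ * ⟨c (Tv k r (0, 1)), hsign _ h01⟩ = (⟨c (Tv k r (1, 1)), hsign _ h11⟩ : alternatingGroup (Fin (4 * k + r))) := by
    apply Subtype.ext
    change (τ : Perm _) * c (Tv k r (0, 1)) = c (Tv k r (1, 1))
    rw [← hcτ, hm]
  refine ⟨⟨c (Tv k r (0, 1)), hsign _ h01⟩, ho, ?_, ?_, ?_, ?_⟩
  · intro h
    have h1 := congrArg Subtype.val h
    change c (Tv k r (0, 1)) = τ at h1
    rw [← hcτ] at h1
    have h2 := c.injective h1
    have h3 := congrArg (fun p : Perm (Y k r) => p (Sum.inl (⟨0, by omega⟩, 0))) h2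
    simp only [Tv_inl, Sum.inl.injEq, Prod.mk.injEq, true_and, add_zero] at h3
    exact absurd h3.1 (by decide)
  · rw [hmul]
    apply Subtype.ext
    change c (Tv k r (1, 1)) = c (Tv k r (0, 1)) * τ
    rw [← hcτ, hm']
  · apply isConj_alt hτ ho
    change _ = (c (Tv k r (0, 1))).support.card
    rw [hcs _ h01, hk]
  · rw [hmul]
    apply isConj_alt hτ
    · rw [← Subgroup.orderOf_coe]; exact hco _ h11
    · change _ = (c (Tv k r (1, 1))).support.card
      rw [hcs _ h11, hk]

end Cfsg.Agent.H306.Kon
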