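import Cfsg.Agent.H306.Kon.OddNormal
import Cfsg.Agent.H306.Kon.FourGroup
import Cfsg.Agent.H244.Kondo.Lift
import Cfsg.Agent.H313.Red
import Cfsg.Agent.H565.RankTwo
import Cfsg.Agent.MTwelveType.PatQuot

/-!
# `G / O(G) ≅ A_m` and `C_G(z) ≅ C_{A_m}(zt)` imply `G ≅ A_m` (helper306, part F of S3218)
-/

set_option autoImplicit false
set_option linter.unusedSectionVars false

namespace Cfsg.Agent.H306.Kon

open Subgroup

section

variable {G : Type*} [Group G] [Finite G]

/-- fixed points of an element of prime order -/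
theorem card_modEq (N : Subgroup G) [N.Normal] {p : ℕ} [Fact p.Prime] {y : G} (hy : orderOf y = p) :
    Nat.card N ≡ Nat.card ↥(N ⊓ centralizer ({y} : Set G)) [MOD p] := by
  let act : MulAction (zpowers y) N :=
    MulAction.compHom N ((MulAut.conjNormal (H := N)).comp (zpowers y).subtype)
  have hP : IsPGroup p (zpowers y) := IsPGroup.of_card (n := 1) (by rw [Nat.card_zpowers, hy, pow_one])
  have h1 := hP.card_modEq_card_fixedPoints N
  have hsm : ∀ (g : zpowers y) (n : N), ((g • n : N) : G) = g.1 * n.1 * g.1⁻¹ := fun g n => rfl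
  have h2 : Nat.card (MulAction.fixedPoints (zpowers y) N) = Nat.card ↥(N ⊓ centralizer ({y} : Set G)) := by
    refine Nat.card_congr ?_
    exact
      { toFun := fun n => ⟨n.1.1, n.1.2, mem_centralizer_singleton_iff.2 (by
          have h3 := congrArg Subtype.val (n.2 ⟨y, mem_zpowers y⟩)
          rw [hsm, mul_inv_eq_iff_eq_mul] at h3
          exact h3.symm)⟩
        invFun := fun n => ⟨⟨n.1, n.2.1⟩, by
          rintro ⟨g, hg⟩
          apply Subtype.ext
          rw [hsm, mul_inv_eq_iff_eq_mul]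
          have h3 : g ∈ centralizer ({n.1} : Set G) := by
            have h4 : zpowers y ≤ centralizer ({n.1} : Set G) := by
              rw [zpowers_le, mem_centralizer_singleton_iff]
              exact (mem_centralizer_singleton_iff.1 n.2.2).symm
            exact h4 hg
          exact mem_centralizer_singleton_iff.1 h3⟩
        left_inv := fun n => rfl
        right_inv := fun n => rfl }
  rwa [h2] at h1

/-- a four-group lifts through a surjection with odd kernel -/
theorem lift_four {A : Type*} [Group A] (φ : G →* A) (hφ : Function.Surjective φ) (hker : Odd (Nat.card φ.ker))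
    {a b : A} (ha : orderOf a = 2) (hb : orderOf b = 2) (hab : a * b = b * a) :
    ∃ x y : G, φ x = a ∧ φ y = b ∧ orderOf x = 2 ∧ orderOf y = 2 ∧ x * y = y * x := by
  have ha2 : a * a = 1 := by rw [← pow_two, ← ha, pow_orderOf_eq_one]
  have hb2 : b * b = 1 := by rw [← pow_two, ← hb, pow_orderOf_eq_one]
  have hA : Finite A := Finite.of_surjective _ hφ
  have : Fact (Nat.Prime 2) := ⟨Nat.prime_two⟩
  set V : Subgroup A := zpowers a ⊔ zpowers b with hV
  have haV : a ∈ V := mem_sup_left (mem_zpowers a)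
  have hbV : b ∈ V := mem_sup_right (mem_zpowers b)
  have hP : ∀ {x : A}, orderOf x = 2 → IsPGroup 2 (zpowers x) := fun {x} hx =>
    IsPGroup.of_card (n := 1) (by rw [Nat.card_zpowers, hx, pow_one])
  have hVP : IsPGroup 2 V := by
    refine (hP ha).to_sup_of_normal_right' (hP hb) ?_
    rw [zpowers_le]
    refine Subgroup.mem_normalizer_iff.2 fun n => ?_
    have h3 : ∀ n ∈ zpowers b, a * n = n * a := by
      intro n hn
      have h4 : zpowers b ≤ centralizer ({a} : Set A) := by
        rw [zpowers_le, mem_centralizer_singleton_iff]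
        exact hab.symm
      exact (mem_centralizer_singleton_iff.1 (h4 hn)).symm
    constructor
    · intro hn
      rw [h3 n hn, mul_inv_cancel_right]
      exact hn
    · intro hn
      have h4 := h3 _ hn
      have h5 : n = a * n * a⁻¹ := by
        have : a * (a * n * a⁻¹) = a * n := by rw [h4]; group
        exact (mul_left_cancel this).symm
      rw [h5]; exact hn
  let π : V.comap φ →* V := φ.subgroupComap V
  have hπ : Function.Surjective π := by
    rintro ⟨v, hv⟩
    obtain ⟨g, rfl⟩ := hφ v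
    exact ⟨⟨g, hv⟩, rfl⟩
  have hk : Odd (Nat.card π.ker) := by
    have h1 : Nat.card π.ker = Nat.card φ.ker := by
      refine Nat.card_congr
        { toFun := fun x => ⟨x.1.1, congrArg Subtype.val x.2⟩
          invFun := fun x => ⟨⟨x.1, ?_⟩, Subtype.ext x.2⟩
          left_inv := fun x => rfl
          right_inv := fun x => rfl }
      change φ x.1 ∈ V
      rw [MonoidHom.mem_ker.1 x.2]
      exact V.one_mem
    rw [h1]; exact hker
  obtain ⟨P, j, h1, h2, h3⟩ := Cfsg.Agent.H244.Kondo.exists_lift (π := π) (J := MonoidHom.id V) (M := ⊤) hπ hk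
    Function.injective_id hVP (by rw [Subgroup.index_top]; decide) (fun x _ y _ => ⟨x * y * x⁻¹, rfl⟩)
  have hj : ∀ v : V, φ (j v : G) = v := fun v => congrArg Subtype.val (h1 v)
  have hne : ∀ {v : V}, orderOf (v : A) = 2 → orderOf ((j v : V.comap φ) : G) = 2 := by
    intro v hv
    refine orderOf_eq_prime ?_ ?_
    · have h4 : v * v = 1 := Subtype.ext (by
        rw [Subgroup.coe_mul, Subgroup.coe_one, ← pow_two, ← hv, pow_orderOf_eq_one])
      rw [pow_two, ← Subgroup.coe_mul, ← map_mul, h4, map_one, Subgroup.coe_one]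
    · intro h4
      have h5 := hj v
      rw [h4, map_one] at h5
      rw [← h5, orderOf_one] at hv
      omega
  refine ⟨j ⟨a, haV⟩, j ⟨b, hbV⟩, hj _, hj _, hne (v := ⟨a, haV⟩) ha, hne (v := ⟨b, hbV⟩) hb, ?_⟩
  rw [← Subgroup.coe_mul, ← Subgroup.coe_mul, ← map_mul, ← map_mul]
  have h6 : (⟨a, haV⟩ : V) * ⟨b, hbV⟩ = ⟨b, hbV⟩ * ⟨a, haV⟩ := Subtype.ext hab
  rw [h6]

/-- the four-group of two commuting involutions -/
def four (x y : G) (hx : x * x = 1) (hy : y * y = 1) (hxy : x * y = y * x) : Subgroup G where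
  carrier := {1, x, y, x * y}
  one_mem' := by simp
  mul_mem' := by
    intro a b ha hb
    have h1 : ∀ g, x * (x * g) = g := fun g => by rw [← mul_assoc, hx, one_mul]
    have h2 : ∀ g, y * (y * g) = g := fun g => by rw [← mul_assoc, hy, one_mul]
    have h3 : ∀ g, y * (x * g) = x * (y * g) := fun g => by rw [← mul_assoc, ← hxy, mul_assoc]
    simp only [Set.mem_insert_iff, Set.mem_singleton_iff] at ha hb ⊢
    rcases ha with rfl | rfl | rfl | rfl <;> rcases hb with rfl | rfl | rfl | rfl <;>
      simp [mul_assoc, hx, hy, h1, h3, ← hxy]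
  inv_mem' := by
    intro a ha
    have hx' : x⁻¹ = x := inv_eq_of_mul_eq_one_left hx
    have hy' : y⁻¹ = y := inv_eq_of_mul_eq_one_left hy
    simp only [Set.mem_insert_iff, Set.mem_singleton_iff] at ha ⊢
    rcases ha with rfl | rfl | rfl | rfl <;> simp [hx', hy', hxy]

theorem mem_four {x y : G} {hx : x * x = 1} {hy : y * y = 1} {hxy : x * y = y * x} {g : G} :
    g ∈ four x y hx hy hxy ↔ g = 1 ∨ g = x ∨ g = y ∨ g = x * y := Iff.rfl

theorem card_four {x y : G} {hx : x * x = 1} {hy : y * y = 1} {hxy : x * y = y * x} (hx1 : x ≠ 1) (hy1 : y ≠ 1)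
    (hne : x ≠ y) : Nat.card (four x y hx hy hxy) = 2 ^ 2 := by
  have h1 : Nat.card (four x y hx hy hxy) = Set.ncard ({1, x, y, x * y} : Set G) := rfl
  have hxy1 : x * y ≠ 1 := fun h => hne (by
    have := mul_eq_one_iff_eq_inv.1 h
    rw [this]; exact inv_eq_of_mul_eq_one_left hy)
  have h2 : y ∉ ({x * y} : Set G) := by
    rw [Set.mem_singleton_iff]
    intro h
    exact hx1 (mul_eq_right.1 h.symm)
  have h3 : x ∉ ({y, x * y} : Set G) := by
    rw [Set.mem_insert_iff, Set.mem_singleton_iff]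
    rintro (h | h)
    · exact hne h
    · exact hy1 (mul_eq_left.1 h.symm)
  have h4 : (1 : G) ∉ ({x, y, x * y} : Set G) := by
    rw [Set.mem_insert_iff, Set.mem_insert_iff, Set.mem_singleton_iff]
    rintro (h | h | h)
    · exact hx1 h.symm
    · exact hy1 h.symm
    · exact hxy1 h.symm
  rw [h1, Set.ncard_insert_of_notMem h4, Set.ncard_insert_of_notMem h3, Set.ncard_insert_of_notMem h2,
    Set.ncard_singleton]
  norm_num

theorem card_four_cent {N : Subgroup G} [N.Normal] (hodd : Odd (Nat.card N)) {x y : G} (hx : orderOf x = 2)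
    (hy : orderOf y = 2) (hx2 : x * x = 1) (hy2 : y * y = 1) (hxy : x * y = y * x) (hne : x ≠ y) {c : ℕ}
    (h : ∀ v, v = x ∨ v = y ∨ v = x * y → Nat.card ↥(N ⊓ centralizer ({v} : Set G)) = c) :
    (c ^ 2) ^ 3 = Nat.card ↥(N ⊓ centralizer (four x y hx2 hy2 hxy : Set G)) ^ 4 * Nat.card N ^ 2 := by
  classical
  have hx1 : x ≠ 1 := by rintro rfl; rw [orderOf_one] at hx; omega
  have hy1 : y ≠ 1 := by rintro rfl; rw [orderOf_one] at hy; omega
  set F := four x y hx2 hy2 hxy with hF
  have hFc : Nat.card F = 2 ^ 2 := card_four hx1 hy1 hne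
  have hxx : Fintype {f : G // f ∈ F ∧ f ≠ 1} := Fintype.ofFinite _
  have hcomm : ∀ a ∈ F, ∀ b ∈ F, a * b = b * a := by
    have h1 : ∀ g, x * (x * g) = g := fun g => by rw [← mul_assoc, hx2, one_mul]
    have h2 : ∀ g, y * (y * g) = g := fun g => by rw [← mul_assoc, hy2, one_mul]
    have h3 : ∀ g, y * (x * g) = x * (y * g) := fun g => by rw [← mul_assoc, ← hxy, mul_assoc]
    intro a ha b hb
    rw [hF, mem_four] at ha hb
    rcases ha with rfl | rfl | rfl | rfl <;> rcases hb with rfl | rfl | rfl | rfl <;>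
      simp [mul_assoc, hx2, hy2, h1, h3, ← hxy]
  have hexp : ∀ a ∈ F, a ^ 2 = 1 := by
    intro a ha
    rw [hF, mem_four] at ha
    rcases ha with rfl | rfl | rfl | rfl
    · exact one_pow 2
    · rw [pow_two, hx2]
    · rw [pow_two, hy2]
    · rw [pow_two, mul_assoc, ← mul_assoc y, ← hxy, mul_assoc, hy2, mul_one, hx2]
  have hb := Cfsg.Agent.H565.RankTwo.brauer_wielandt Nat.prime_two F N
    (by rw [Subgroup.normalizer_eq_top]; exact le_top) hFc hcomm hexp
    (fun h => (Nat.not_even_iff_odd.2 hodd) (even_iff_two_dvd.2 h))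
  have hc : ∀ f : {f : G // f ∈ F ∧ f ≠ 1}, Nat.card ↥(N ⊓ centralizer ({f.1} : Set G)) ^ 2 = c ^ 2 := by
    rintro ⟨f, hf, hf1⟩
    rw [h f]
    rw [hF, mem_four] at hf
    rcases hf with hf | hf | hf | hf
    · exact absurd hf hf1
    · exact Or.inl hf
    · exact Or.inr (Or.inl hf)
    · exact Or.inr (Or.inr hf)
  rw [Finset.prod_congr rfl (fun f _ => hc f), Finset.prod_const, Finset.card_univ] at hb
  have hcard : Fintype.card {f : G // f ∈ F ∧ f ≠ 1} = 3 := by
    have h5 : Nat.card {f : G // f ∈ F ∧ f ≠ 1} = 3 := by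
      have h6 : Nat.card {f : G // f ∈ F ∧ f ≠ 1} = Set.ncard ((F : Set G) \ {1}) := rfl
      have h7 : Set.ncard (F : Set G) = Nat.card F := rfl
      rw [h6, Set.ncard_sdiff_singleton_of_mem F.one_mem, h7, hFc]
      norm_num
    rw [← h5, Nat.card_eq_fintype_card]
  rw [hcard] at hb
  exact hb

theorem card_sq_dvd {N : Subgroup G} [N.Normal] (hodd : Odd (Nat.card N)) {x y : G} (hx : orderOf x = 2)
    (hy : orderOf y = 2) (hxy : x * y = y * x) (hne : x ≠ y) {c : ℕ}
    (h : ∀ v, v = x ∨ v = y ∨ v = x * y → Nat.card ↥(N ⊓ centralizer ({v} : Set G)) = c) :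
    Nat.card N ^ 2 ∣ (c ^ 2) ^ 3 := by
  have hx2 : x * x = 1 := by rw [← pow_two, ← hx, pow_orderOf_eq_one]
  have hy2 : y * y = 1 := by rw [← pow_two, ← hy, pow_orderOf_eq_one]
  rw [card_four_cent hodd hx hy hx2 hy2 hxy hne h]
  exact Dvd.intro_left _ rfl

theorem le_centralizer_seven {N : Subgroup G} [N.Normal] {y : G} (hy : orderOf y = 7)
    (hN : Nat.card N ^ 2 ∣ (3 ^ 2) ^ 3) : N ≤ centralizer ({y} : Set G) := by
  have : Fact (Nat.Prime 7) := ⟨by norm_num⟩
  have h1 : Nat.card N ∣ 27 := by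
    have h2 : Nat.card N ^ 2 ∣ 27 ^ 2 := by
      have : (27 : ℕ) ^ 2 = (3 ^ 2) ^ 3 := by norm_num
      rw [this]; exact hN
    exact (Nat.pow_dvd_pow_iff (by norm_num)).1 h2
  have h3 := card_modEq N hy
  have h4 : Nat.card ↥(N ⊓ centralizer ({y} : Set G)) ∣ Nat.card N := card_dvd_of_le inf_le_left
  have h5 : Nat.card ↥(N ⊓ centralizer ({y} : Set G)) = Nat.card N := by
    generalize Nat.card ↥(N ⊓ centralizer ({y} : Set G)) = c at h3 h4 ⊢
    generalize Nat.card N = n at h1 h3 h4 ⊢
    have h6 : n ∈ Nat.divisors 27 := Nat.mem_divisors.2 ⟨h1, by norm_num⟩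
    have h7 : Nat.divisors 27 = {1, 3, 9, 27} := by decide +kernel
    have h8 : c ∣ 27 := h4.trans h1
    have h9 : c ∈ Nat.divisors 27 := Nat.mem_divisors.2 ⟨h8, by norm_num⟩
    rw [h7] at h6 h9
    simp only [Finset.mem_insert, Finset.mem_singleton] at h6 h9
    have h10 : n % 7 = c % 7 := h3
    rcases h6 with rfl | rfl | rfl | rfl <;> rcases h9 with rfl | rfl | rfl | rfl <;> simp_all
  have h6 : N ⊓ centralizer ({y} : Set G) = N := eq_of_le_of_card_ge inf_le_left h5.ge
  exact inf_eq_left.1 h6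

end

open Equiv Equiv.Perm Cfsg.Agent.H313.Alt

theorem card_conj {G : Type*} [Group G] (N : Subgroup G) [hN : N.Normal] {z w : G} (h : IsConj z w) :
    Nat.card ↥(N ⊓ centralizer ({w} : Set G)) = Nat.card ↥(N ⊓ centralizer ({z} : Set G)) := by
  obtain ⟨g, rfl⟩ := isConj_iff.1 h
  have key : ∀ x : G, g * x * g⁻¹ ∈ N ⊓ centralizer ({g * z * g⁻¹} : Set G) ↔
      x ∈ N ⊓ centralizer ({z} : Set G) := by
    intro x
    rw [Subgroup.mem_inf, Subgroup.mem_inf, mem_centralizer_singleton_iff, mem_centralizer_singleton_iff]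
    refine and_congr ⟨fun h => ?_, fun h => hN.conj_mem _ h _⟩ ?_
    · have h1 := hN.conj_mem _ h g⁻¹
      have h2 : g⁻¹ * (g * x * g⁻¹) * g⁻¹⁻¹ = x := by group
      rwa [h2] at h1
    · have h2 : g * x * g⁻¹ * (g * z * g⁻¹) = g * (x * z) * g⁻¹ := by group
      have h3 : g * z * g⁻¹ * (g * x * g⁻¹) = g * (z * x) * g⁻¹ := by group
      rw [h2, h3]
      exact ⟨fun h => mul_left_cancel (mul_right_cancel h), fun h => by rw [h]⟩
  refine Nat.card_congr ((Equiv.subtypeEquiv (MulAut.conj g).toEquiv fun x => ?_)).symm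
  exact (key x).symm

theorem exists_noncomm_alt {m : ℕ} (hm : 7 ≤ m) : ∃ a b : alternatingGroup (Fin m), a * b ≠ b * a := by
  by_contra h
  push Not at h
  have h1 : commutator (alternatingGroup (Fin m)) = ⊤ :=
    commutator_alternatingGroup_eq_top (by rw [Nat.card_fin]; omega)
  have h2 : commutator (alternatingGroup (Fin m)) = ⊥ := by
    rw [commutator_def, eq_bot_iff, Subgroup.commutator_le]
    intro a _ b _
    rw [Subgroup.mem_bot, commutatorElement_eq_one_iff_mul_comm]
    exact h a b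
  have hs : IsSimpleGroup (alternatingGroup (Fin m)) := alternatingGroup.isSimpleGroup (by rw [Nat.card_fin]; omega)
  have := hs.toNontrivial
  exact bot_ne_top (h2.symm.trans h1)

theorem finish {G : Type*} [Group G] [Finite G] {m : ℕ} (hm : 7 ≤ m) (hmod : m % 4 = 2 ∨ m % 4 = 3)
    (zt : alternatingGroup (Fin m)) (hzt : orderOf zt = 2) (z : G) (hz : orderOf z = 2)
    (e : ↥(Subgroup.centralizer ({z} : Set G)) ≃* ↥(Subgroup.centralizer ({zt} : Set ↥(alternatingGroup (Fin m)))))
    (N : Subgroup G) [hN : N.Normal] (hNodd : Odd (Nat.card N)) (φ : G →* alternatingGroup (Fin m))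
    (hφ : Function.Surjective φ) (hker : φ.ker = N) : N = ⊥ := by
  classical
  have hsimp : IsSimpleGroup (alternatingGroup (Fin m)) :=
    alternatingGroup.isSimpleGroup (by rw [Nat.card_fin]; omega)
  set s : Perm (Fin m) := (zt : Perm (Fin m)) with hs_def
  have hso : orderOf s = 2 := by rw [hs_def, Subgroup.orderOf_coe]; exact hzt
  have hs : s * s = 1 := by rw [← pow_two, ← hso, pow_orderOf_eq_one]
  have hs1 : s ≠ 1 := by
    intro h
    rw [h, orderOf_one] at hso
    omega
  obtain ⟨k, hk⟩ := four_dvd_support hso (mem_alternatingGroup.1 zt.2)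
  have hk0 : 0 < s.support.card := by
    rw [Finset.card_pos]
    exact Finset.nonempty_iff_ne_empty.2 fun h => hs1 (support_eq_empty_iff.1 h)
  have hmove : ∃ a, s a ≠ a := by
    obtain ⟨a, ha⟩ := Finset.card_pos.1 hk0
    exact ⟨a, mem_support.1 ha⟩
  have hex : ∀ a, s a ≠ a → ∃ b, Dis s a b := by
    intro a ha
    have h1 : 2 < s.support.card := by omega
    have h2 : ∃ b ∈ s.support, b ∉ ({a, s a} : Finset (Fin m)) := by
      apply Finset.exists_mem_notMem_of_card_lt_card
      exact (Finset.card_le_two).trans_lt h1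
    obtain ⟨b, hb, hb2⟩ := h2
    simp only [Finset.mem_insert, Finset.mem_singleton, not_or] at hb2
    exact ⟨b, ⟨ha, mem_support.1 hb, fun h => hb2.1 h.symm, fun h => hb2.2 (by rw [h, ss hs])⟩⟩
  have hr : Nat.card {x // s x = x} = m - s.support.card := by
    have h1 : Nat.card {x // s x = x} = (s.supportᶜ).card := by
      rw [Nat.card_eq_fintype_card, Fintype.card_subtype]
      congr 1
      ext x
      simp
    rw [h1, Finset.card_compl, Fintype.card_fin]
  have hle : s.support.card ≤ m := by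
    have := Finset.card_le_univ s.support
    rwa [Fintype.card_fin] at this
  have hr4 : (m - s.support.card) % 4 = 2 ∨ (m - s.support.card) % 4 = 3 := by omega
  -- the embedding of `C(z)`
  let ι : ↥(centralizer ({z} : Set G)) →* Perm (Fin m) :=
    (alternatingGroup (Fin m)).subtype.comp ((centralizer ({zt} : Set (alternatingGroup (Fin m)))).subtype.comp
      e.toMonoidHom)
  have hιinj : Function.Injective ι :=
    (Subtype.val_injective.comp Subtype.val_injective).comp e.injective
  have hι1 : ∀ x, ι x ∈ CC s := by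
    intro x
    rw [mem_CC]
    refine ⟨?_, mem_alternatingGroup.1 (e x).1.2⟩
    have h1 := mem_centralizer_singleton_iff.1 (e x).2
    exact congrArg Subtype.val h1
  have hι2 : ∀ c ∈ CC s, ∃ x, ι x = c := by
    intro c hc
    rw [mem_CC] at hc
    have h1 : (⟨c, mem_alternatingGroup.2 hc.2⟩ : alternatingGroup (Fin m)) ∈
        centralizer ({zt} : Set (alternatingGroup (Fin m))) := by
      rw [mem_centralizer_singleton_iff]
      exact Subtype.ext hc.1
    refine ⟨e.symm ⟨_, h1⟩, ?_⟩
    change (((e (e.symm ⟨_, h1⟩)) : alternatingGroup (Fin m)) : Perm (Fin m)) = c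
    rw [e.apply_symm_apply]
  set K : Subgroup (Perm (Fin m)) := (N.subgroupOf (centralizer ({z} : Set G))).map ι with hKdef
  have hKc : Nat.card K = Nat.card ↥(N ⊓ centralizer ({z} : Set G)) := by
    have h1 : Nat.card K = Nat.card ↥(N.subgroupOf (centralizer ({z} : Set G))) :=
      (Nat.card_congr ((N.subgroupOf (centralizer ({z} : Set G))).equivMapOfInjective ι hιinj).toEquiv).symm
    rw [h1]
    refine Nat.card_congr
      { toFun := fun x => ⟨x.1.1, x.2, x.1.2⟩
        invFun := fun x => ⟨⟨x.1, x.2.2⟩, x.2.1⟩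
        left_inv := fun x => rfl
        right_inv := fun x => rfl }
  have hK : K ≤ CC s := by
    rintro _ ⟨x, -, rfl⟩
    exact hι1 x
  have hKN : ∀ c ∈ CC s, ∀ n ∈ K, c * n * c⁻¹ ∈ K := by
    rintro c hc _ ⟨x, hx, rfl⟩
    obtain ⟨y, rfl⟩ := hι2 c hc
    refine ⟨y * x * y⁻¹, ?_, by rw [map_mul, map_mul, map_inv]⟩
    exact hN.conj_mem _ hx _
  have hKodd : Odd (Nat.card K) := by
    rw [hKc]
    exact hNodd.of_dvd_nat (card_dvd_of_le inf_le_left)
  have hz2 : z * z = 1 := by rw [← pow_two, ← hz, pow_orderOf_eq_one]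
  have hz1 : z ≠ 1 := by
    intro h
    rw [h, orderOf_one] at hz
    omega
  have eφ : (G ⧸ N) ≃* alternatingGroup (Fin m) := by
    subst hker
    exact QuotientGroup.quotientKerEquivOfSurjective φ hφ
  rcases card_odd_normal hs hex hK hKN hKodd hr hr4 with hc | ⟨-, hc⟩
  · -- `z` inverts `N`
    have h1 : N ⊓ centralizer ({z} : Set G) = ⊥ := by
      rw [hKc] at hc
      exact Subgroup.eq_bot_of_card_eq _ hc
    refine Cfsg.Agent.H313.Red.eq_bot_of_fixedPointFree N hNodd hz2 hz1 ?_ ?_ ?_
    · exact eφ.isSimpleGroup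
    · obtain ⟨a, b, hab⟩ := exists_noncomm_alt hm
      refine ⟨eφ.symm a, eφ.symm b, fun h => hab ?_⟩
      rw [← map_mul, ← map_mul] at h
      exact eφ.symm.injective h
    · intro x hx hxz
      have h2 : x ∈ N ⊓ centralizer ({z} : Set G) := ⟨hx, mem_centralizer_singleton_iff.2 hxz⟩
      rw [h1] at h2
      exact h2
  · exfalso
    obtain ⟨y0, hy0C, hy0, n0, hn0K, hn0⟩ := exists_inverting hs hex hK hKN hc hmove
    obtain ⟨y1, rfl⟩ := hι2 y0 hy0C
    obtain ⟨x1, hx1, rfl⟩ := hn0K
    have hy1 : (y1 : G) * y1 = 1 := by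
      have h1 : y1 * y1 = 1 := hιinj (by rw [map_mul, hy0, map_one])
      exact congrArg Subtype.val h1
    have hxy : (y1 : G) * x1 ≠ x1 * y1 := by
      intro h
      apply hn0
      rw [← map_mul, ← map_mul]
      exact congrArg ι (Subtype.ext h)
    have hkerodd : Odd (Nat.card φ.ker) := by rw [hker]; exact hNodd
    have hφz : orderOf (φ z) = 2 := by
      refine orderOf_eq_prime ?_ ?_
      · rw [pow_two, ← map_mul, hz2, map_one]
      · intro h
        have h1 : z ∈ N := by rw [← hker]; exact h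
        have h2 : orderOf (⟨z, h1⟩ : N) ∣ Nat.card N := orderOf_dvd_natCard _
        rw [← Subgroup.orderOf_coe] at h2
        rw [show orderOf ((⟨z, h1⟩ : N) : G) = 2 from hz] at h2
        exact absurd (hNodd.of_dvd_nat h2) (by decide)
    obtain ⟨τ', h1, h2, h3, h4, h5⟩ := exists_four (φ z) hφz
    obtain ⟨u, v, hu, hv, hu2, hv2, huv⟩ := lift_four φ hφ hkerodd hφz h1 h3
    have huu : u * u = 1 := by rw [← pow_two, ← hu2, pow_orderOf_eq_one]
    have hvv : v * v = 1 := by rw [← pow_two, ← hv2, pow_orderOf_eq_one]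
    have hne : u ≠ v := by
      rintro rfl
      exact h2 (hv.symm.trans hu)
    have huv2 : orderOf (u * v) = 2 := by
      refine orderOf_eq_prime ?_ ?_
      · rw [pow_two, mul_assoc, ← mul_assoc v, ← huv, mul_assoc, hvv, mul_one, huu]
      · intro h
        have := mul_eq_one_iff_eq_inv.1 h
        exact hne (by rw [this]; exact inv_eq_of_mul_eq_one_left hvv)
    have hconj : ∀ w, orderOf w = 2 → IsConj (φ z) (φ w) → IsConj z w := by
      intro w hw h
      obtain ⟨c, hc⟩ := isConj_iff.1 h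
      obtain ⟨g, rfl⟩ := hφ c
      refine Cfsg.Agent.MTwelveType.PatQuot.isConj_of_isConj_quot N hNodd hz hw ?_
      rw [isConj_iff]
      refine ⟨(g : G ⧸ N), ?_⟩
      rw [← QuotientGroup.mk_mul, ← QuotientGroup.mk_inv, ← QuotientGroup.mk_mul, QuotientGroup.eq, ← hker,
        MonoidHom.mem_ker, map_mul, map_inv, map_mul, map_mul, map_inv, hc, inv_mul_cancel]
    have hcard3 : ∀ w, w = u ∨ w = v ∨ w = u * v → Nat.card ↥(N ⊓ centralizer ({w} : Set G)) = 3 := by
      intro w hw
      have h6 : IsConj z w := by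
        rcases hw with rfl | rfl | rfl
        · exact hconj _ hu2 (by rw [hu])
        · exact hconj _ hv2 (by rw [hv]; exact h4)
        · exact hconj _ huv2 (by rw [map_mul, hu, hv]; exact h5)
      rw [card_conj N h6, ← hKc, hc]
    have hdvd := card_sq_dvd hNodd hu2 hv2 huv hne hcard3
    have : Fact (Nat.Prime 7) := ⟨by norm_num⟩
    have h7 : 7 ∣ Nat.card G := by
      have h8 : 7 ∣ Nat.card (alternatingGroup (Fin m)) := by
        have hnt : Nontrivial (Fin m) := Fin.nontrivial_iff_two_le.2 (by omega)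
        have h9 := two_mul_nat_card_alternatingGroup (α := Fin m)
        rw [Nat.card_perm, Nat.card_fin] at h9
        have h10 : 7 ∣ m.factorial := (Nat.Prime.dvd_factorial (by norm_num)).2 hm
        rw [← h9] at h10
        exact (Nat.Coprime.dvd_mul_left (by norm_num)).1 h10
      exact h8.trans (Subgroup.card_dvd_of_surjective φ hφ)
    obtain ⟨y, hy⟩ := exists_prime_orderOf_dvd_card' 7 h7
    have hNy := le_centralizer_seven (N := N) hy hdvd
    have hLn : (centralizer (N : Set G)).Normal := inferInstance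
    have hyL : y ∈ centralizer (N : Set G) := by
      rw [Subgroup.mem_centralizer_iff]
      intro n hn
      exact mem_centralizer_singleton_iff.1 (hNy hn)
    have hmapn : ((centralizer (N : Set G)).map φ).Normal := hLn.map φ hφ
    have hN3 : ¬ 7 ∣ Nat.card N := by
      intro h
      have h11 : 7 ∣ (3 ^ 2) ^ 3 := (dvd_pow h (by norm_num)).trans hdvd
      norm_num at h11
    rcases hmapn.eq_bot_or_eq_top with hb | ht
    · have h12 : φ y = 1 := by
        have h13 : φ y ∈ (centralizer (N : Set G)).map φ := ⟨y, hyL, rfl⟩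
        rw [hb] at h13
        exact h13
      have h14 : y ∈ N := by rw [← hker]; exact h12
      apply hN3
      have h15 := orderOf_dvd_natCard (⟨y, h14⟩ : N)
      rw [← Subgroup.orderOf_coe] at h15
      rwa [show orderOf ((⟨y, h14⟩ : N) : G) = 7 from hy] at h15
    · -- involutions centralize `N`
      have hy1L : (y1 : G) ∈ centralizer (N : Set G) := by
        have h13 : φ y1 ∈ (centralizer (N : Set G)).map φ := by rw [ht]; exact Subgroup.mem_top _
        obtain ⟨l, hl, hl2⟩ := h13
        have hn : l⁻¹ * y1 ∈ N := by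
          rw [← hker, MonoidHom.mem_ker, map_mul, map_inv, hl2, inv_mul_cancel]
        have h16 : ((y1 : G) : G ⧸ centralizer (N : Set G)) = ((l⁻¹ * y1 : G) : G ⧸ centralizer (N : Set G)) := by
          have h17 : ((l⁻¹ : G) : G ⧸ centralizer (N : Set G)) = 1 :=
            (QuotientGroup.eq_one_iff _).2 (inv_mem hl)
          rw [QuotientGroup.mk_mul, h17, one_mul]
        rw [← QuotientGroup.eq_one_iff, ← orderOf_eq_one_iff]
        have h18 : orderOf ((y1 : G) : G ⧸ centralizer (N : Set G)) ∣ 2 :=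
          orderOf_dvd_of_pow_eq_one (by rw [pow_two, ← QuotientGroup.mk_mul, hy1, QuotientGroup.mk_one])
        have h19 : orderOf ((y1 : G) : G ⧸ centralizer (N : Set G)) ∣ Nat.card N := by
          rw [h16]
          have h20 : orderOf (QuotientGroup.mk' (centralizer (N : Set G)) (l⁻¹ * y1)) ∣ orderOf (l⁻¹ * (y1 : G)) :=
            orderOf_map_dvd _ _
          refine h20.trans ?_
          have h21 := orderOf_dvd_natCard (⟨_, hn⟩ : N)
          rwa [← Subgroup.orderOf_coe] at h21
        exact Nat.eq_one_of_dvd_coprimes (Nat.coprime_two_left.2 hNodd) h18 h19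
      apply hxy
      rw [Subgroup.mem_centralizer_iff] at hy1L
      exact (hy1L x1 hx1).symm

/-- part F of S3218 -/
theorem finish' {G : Type*} [Group G] [Finite G] {m : ℕ} (hm : 7 ≤ m) (hmod : m % 4 = 2 ∨ m % 4 = 3)
    (zt : alternatingGroup (Fin m)) (hzt : orderOf zt = 2) (z : G) (hz : orderOf z = 2)
    (e : ↥(Subgroup.centralizer ({z} : Set G)) ≃* ↥(Subgroup.centralizer ({zt} : Set ↥(alternatingGroup (Fin m)))))
    (f : (G ⧸ Cfsg.oddCore G) ≃* alternatingGroup (Fin m)) : Nonempty (G ≃* alternatingGroup (Fin m)) := by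
  have h1 : Cfsg.oddCore G = ⊥ := by
    refine finish hm hmod zt hzt z hz e (Cfsg.oddCore G) Cfsg.Agent.H313.Red.oddCore_odd
      (f.toMonoidHom.comp (QuotientGroup.mk' (Cfsg.oddCore G)))
      (f.surjective.comp (QuotientGroup.mk'_surjective _)) ?_
    ext x
    rw [MonoidHom.mem_ker, MonoidHom.comp_apply]
    change f (x : G ⧸ Cfsg.oddCore G) = 1 ↔ _
    rw [map_eq_one_iff f f.injective, QuotientGroup.eq_one_iff]
  exact ⟨(QuotientGroup.quotientBot.symm.trans (QuotientGroup.quotientMulEquivOfEq h1.symm)).trans f⟩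

end Cfsg.Agent.H306.Kon
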