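import Cfsg.Agent.H313.AltC
import Cfsg.Agent.H306.Kon.Alt

/-!
# Normal subgroups of odd order in the centralizer of an involution of an alternating group (helper306, for S3218)
-/

set_option autoImplicit false
set_option linter.unusedSectionVars false

namespace Cfsg.Agent.H306.Kon

open Equiv Equiv.Perm Cfsg.Agent.H313.Alt

section

variable {Ω : Type*} [DecidableEq Ω] [Fintype Ω] {s : Perm Ω} {K : Subgroup (Perm Ω)}

theorem tr_comm_tr (hs : s * s = 1) (x y : Ω) : tr s x * tr s y = tr s y * tr s x := by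
  have h := conj_tr (s := s) (c := tr s x) (tr_comm hs x) y
  have h2 : tr s (tr s x y) = tr s y := by
    by_cases h1 : y = x
    · rw [h1, tr_left, tr_s hs]
    by_cases h3 : y = s x
    · rw [h3, tr_right, tr_s hs]
    rw [tr_of_ne h1 h3]
  rw [h2, mul_inv_eq_iff_eq_mul] at h
  exact h

theorem eq_one_of_sq {K : Subgroup (Perm Ω)} (hodd : Odd (Nat.card K)) {w : Perm Ω} (hw : w ∈ K) (hww : w * w = 1) :
    w = 1 := by
  have h1 : orderOf (⟨w, hw⟩ : K) ∣ Nat.card K := orderOf_dvd_natCard _
  have h2 : orderOf (⟨w, hw⟩ : K) ∣ 2 := orderOf_dvd_of_pow_eq_one (by rw [pow_two]; exact Subtype.ext hww)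
  rcases (Nat.dvd_prime Nat.prime_two).1 h2 with h3 | h3
  · exact congrArg Subtype.val (orderOf_eq_one_iff.1 h3)
  · rw [h3] at h1
    exact absurd (hodd.of_dvd_nat h1) (by decide)

/-- odd normal subgroups of the centralizer fix the moved points of `s` -/
theorem fix_moved (hs : s * s = 1) (hex : ∀ a, s a ≠ a → ∃ b, Dis s a b) (hK : K ≤ CC s)
    (hN : ∀ c ∈ CC s, ∀ n ∈ K, c * n * c⁻¹ ∈ K) (hodd : Odd (Nat.card K)) {n : Perm Ω} (hn : n ∈ K) {a : Ω}
    (ha : s a ≠ a) : n a = a := by
  obtain ⟨b, hab⟩ := hex a ha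
  have hnC := (mem_CC.1 (hK hn)).1
  set u : Perm Ω := tr s a * tr s b with hu
  have huC : u ∈ CC s := trtr_mem hs hab.x1 hab.y1
  have huu : u * u = 1 := by
    rw [hu, mul_assoc, ← mul_assoc (tr s b), ← tr_comm_tr hs a b, mul_assoc, tr_tr, mul_one, tr_tr]
  have hui : u⁻¹ = u := inv_eq_of_mul_eq_one_left huu
  have hw : n * u * n⁻¹ * u⁻¹ ∈ K := by
    have h1 := hN u huC n⁻¹ (K.inv_mem hn)
    have h2 := K.mul_mem hn h1
    have h3 : n * (u * n⁻¹ * u⁻¹) = n * u * n⁻¹ * u⁻¹ := by group
    rwa [h3] at h2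
  have hcu : n * u * n⁻¹ = tr s (n a) * tr s (n b) := by
    rw [hu, ← conj_tr hnC, ← conj_tr hnC]; group
  have hcomm : (n * u * n⁻¹) * u = u * (n * u * n⁻¹) := by
    rw [hcu, hu]
    have h1 := tr_comm_tr hs
    calc tr s (n a) * tr s (n b) * (tr s a * tr s b) = tr s (n a) * (tr s (n b) * tr s a) * tr s b := by group
      _ = tr s (n a) * tr s a * (tr s (n b) * tr s b) := by rw [h1 (n b) a]; group
      _ = tr s a * (tr s (n a) * tr s b) * tr s (n b) := by rw [h1 (n a) a, h1 (n b) b]; group
      _ = tr s a * tr s b * (tr s (n a) * tr s (n b)) := by rw [h1 (n a) b]; group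
  have hww : (n * u * n⁻¹ * u⁻¹) * (n * u * n⁻¹ * u⁻¹) = 1 := by
    rw [hui]
    calc n * u * n⁻¹ * u * (n * u * n⁻¹ * u) = n * u * n⁻¹ * u * (u * (n * u * n⁻¹)) := by rw [hcomm]
      _ = n * u * n⁻¹ * (u * u) * (n * u * n⁻¹) := by group
      _ = n * u * n⁻¹ * (n * u * n⁻¹) := by rw [huu, mul_one]
      _ = n * (u * u) * n⁻¹ := by group
      _ = 1 := by rw [huu, mul_one, mul_inv_cancel]
  have hone := eq_one_of_sq hodd hw hww
  have heq : tr s (n a) * tr s (n b) = tr s a * tr s b := by
    rw [← hcu, ← hu]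
    exact mul_inv_eq_one.1 hone
  have hinj := n.injective
  have hd : Dis s (n a) (n b) := ⟨by rw [← app_comm hnC]; exact fun e => hab.x1 (hinj e),
    by rw [← app_comm hnC]; exact fun e => hab.y1 (hinj e), fun e => hab.ne (hinj e),
    by rw [← app_comm hnC]; exact fun e => hab.ns (hinj e)⟩
  have h4 : ∀ x, x ≠ a → x ≠ s a → x ≠ b → x ≠ s b → (tr s a * tr s b) x = x := by
    intro x h1 h2 h3 h4
    rw [Perm.mul_apply, tr_of_ne h3 h4, tr_of_ne h1 h2]
  have h5 : (tr s (n a) * tr s (n b)) (n a) = s (n a) := by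
    rw [Perm.mul_apply, tr_of_ne hd.ne hd.ns, tr_left]
  have h6 : (tr s (n a) * tr s (n b)) (n b) = s (n b) := by
    rw [Perm.mul_apply, tr_left]
    refine tr_of_ne (fun e => ?_) (fun e => ?_)
    · exact hd.ns (by rw [e])
    · exact hd.ne (s.injective e.symm)
  have h7 : n a = a ∨ n a = s a ∨ n a = b ∨ n a = s b := by
    by_contra hc
    push Not at hc
    obtain ⟨c1, c2, c3, c4⟩ := hc
    rw [heq, h4 _ c1 c2 c3 c4] at h5
    exact hd.x1 h5.symm
  have h8 : n b = a ∨ n b = s a ∨ n b = b ∨ n b = s b := by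
    by_contra hc
    push Not at hc
    obtain ⟨c1, c2, c3, c4⟩ := hc
    rw [heq, h4 _ c1 c2 c3 c4] at h6
    exact hd.y1 h6.symm
  have hsa : n (s a) = s (n a) := app_comm hnC a
  have hsb : n (s b) = s (n b) := app_comm hnC b
  have hss : ∀ x, s (s x) = x := ss hs
  have h9 : (n ^ 4) a = a := by
    have e4 : (n ^ 4) a = n (n (n (n a))) := rfl
    rw [e4]
    rcases h7 with h | h | h | h
    · rw [h, h, h, h]
    · have e1 : n (n a) = a := by rw [h, hsa, h, hss]
      rw [e1, e1]
    · rcases h8 with h' | h' | h' | h'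
      · have e1 : n (n a) = a := by rw [h, h']
        rw [e1, e1]
      · have e1 : n (n a) = s a := by rw [h, h']
        rw [e1, hsa, h, hsb, h', hss]
      · exact absurd (hinj (h.trans h'.symm)) hab.ne
      · exfalso
        have e1 : n (s a) = n b := by rw [hsa, h, h']
        exact hab.ns' hs (hinj e1)
    · have hn2 : n (n a) = s (n b) := by rw [h, hsb]
      rcases h8 with h' | h' | h' | h'
      · rw [hn2, h', hsa, h, hss, h']
      · have e1 : n (n a) = a := by rw [hn2, h', hss]
        rw [e1, e1]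
      · exfalso
        have e1 : n (s a) = n b := by rw [hsa, h, h', hss]
        exact hab.ns' hs (hinj e1)
      · exact absurd (hinj (h.trans h'.symm)) hab.ne
  -- odd order
  have h10 : (orderOf n).Coprime 4 := by
    have h1 : orderOf (⟨n, hn⟩ : K) ∣ Nat.card K := orderOf_dvd_natCard _
    rw [Subgroup.orderOf_mk] at h1
    have h2 := hodd.of_dvd_nat h1
    have h3 : (4 : ℕ) = 2 ^ 2 := by norm_num
    rw [h3]
    exact Nat.Coprime.pow_right _ (Nat.coprime_comm.1 (Nat.coprime_two_left.2 h2))
  obtain ⟨k, hk⟩ := exists_pow_eq_self_of_coprime h10.symm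
  have h11 : ∀ j : ℕ, ((n ^ 4) ^ j) a = a := by
    intro j
    induction j with
    | zero => rfl
    | succ j ih => rw [pow_succ, Perm.mul_apply, h9, ih]
  have h12 := h11 k
  rwa [hk] at h12

/-- restriction of an odd normal subgroup to the fixed points -/
theorem card_odd_normal (hs : s * s = 1) (hex : ∀ a, s a ≠ a → ∃ b, Dis s a b) (hK : K ≤ CC s)
    (hN : ∀ c ∈ CC s, ∀ n ∈ K, c * n * c⁻¹ ∈ K) (hodd : Odd (Nat.card K)) {r : ℕ}
    (hr : Nat.card {x // s x = x} = r) (hr4 : r % 4 = 2 ∨ r % 4 = 3) :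
    Nat.card K = 1 ∨ (r = 3 ∧ Nat.card K = 3) := by
  classical
  set F := {x // s x = x} with hF
  have hfix : ∀ n ∈ K, ∀ x, s x ≠ x → n x = x := fun n hn x hx => fix_moved hs hex hK hN hodd hn hx
  have hpres : ∀ n ∈ K, ∀ x, s x = x ↔ s (n x) = n x := by
    intro n hn x
    have h1 := app_comm (mem_CC.1 (hK hn)).1 x
    rw [← h1]
    exact ⟨fun h => by rw [h], fun h => n.injective h⟩
  -- the restriction
  have hofs : ∀ n (hn : n ∈ K), ofSubtype (n.subtypePerm (p := fun x => s x = x) (fun x => (hpres n hn x).symm)) = n := by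
    intro n hn
    apply Perm.ofSubtype_subtypePerm
    intro x hx
    by_contra hc
    exact hx (hfix n hn x hc)
  let ψ : K →* Perm F :=
    { toFun := fun n => (n : Perm Ω).subtypePerm (p := fun x => s x = x) (fun x => (hpres n n.2 x).symm)
      map_one' := by
        apply Perm.ext
        intro x
        apply Subtype.ext
        rw [Perm.subtypePerm_apply]
        change ((1 : K) : Perm Ω) x = x
        rw [Subgroup.coe_one, Perm.one_apply]
      map_mul' := by
        intro a b
        apply Perm.ext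
        intro x
        apply Subtype.ext
        rw [Perm.mul_apply, Perm.subtypePerm_apply, Perm.subtypePerm_apply, Perm.subtypePerm_apply]
        change ((a * b : K) : Perm Ω) x = (a : Perm Ω) ((b : Perm Ω) x)
        rw [Subgroup.coe_mul, Perm.mul_apply] }
  have hψ : ∀ n : K, ofSubtype (ψ n) = n := fun n => hofs n n.2
  have hψa : ∀ n : K, ψ n ∈ alternatingGroup F := by
    intro n
    rw [mem_alternatingGroup, ← sign_ofSubtype, hψ]
    exact (mem_CC.1 (hK n.2)).2
  have hψinj : Function.Injective ψ := by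
    intro a b hab
    apply Subtype.ext
    rw [← hψ a, ← hψ b, hab]
  let Φ : K →* alternatingGroup F := ψ.codRestrict (alternatingGroup F) hψa
  have hΦ : Function.Injective Φ := by
    intro a b hab
    exact hψinj (congrArg Subtype.val hab)
  have hcard : Nat.card K = Nat.card Φ.range := Nat.card_congr (MonoidHom.ofInjective hΦ).toEquiv
  have hnorm : Φ.range.Normal := by
    constructor
    rintro _ ⟨n, rfl⟩ g
    have hgC : ofSubtype (g : Perm F) ∈ CC s := by
      rw [mem_CC]
      constructor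
      · apply comm_of_app
        intro x
        by_cases hx : s x = x
        · rw [hx]
          have h1 : ofSubtype (g : Perm F) x = ((g : Perm F) ⟨x, hx⟩ : F) :=
            ofSubtype_apply_of_mem (p := fun x => s x = x) _ hx
          rw [h1]
          exact (((g : Perm F) ⟨x, hx⟩ : F).2).symm
        · rw [ofSubtype_apply_of_not_mem (p := fun x => s x = x) _ hx,
            ofSubtype_apply_of_not_mem (p := fun x => s x = x)]
          intro h1
          exact hx (s.injective h1)
      · rw [sign_ofSubtype]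
        exact mem_alternatingGroup.1 g.2
    have h2 := hN _ hgC n n.2
    refine ⟨⟨_, h2⟩, ?_⟩
    apply Subtype.ext
    apply ofSubtype_injective
    have h5 : ofSubtype (ψ ⟨_, h2⟩) = ofSubtype (g : Perm F) * (n : Perm Ω) * (ofSubtype (g : Perm F))⁻¹ := hψ _
    change ofSubtype (ψ ⟨_, h2⟩) = ofSubtype ((g : Perm F) * ψ n * ((g : Perm F))⁻¹)
    rw [h5, map_mul, map_mul, map_inv, hψ]
  have hcF : Fintype.card F = r := by rw [← hr, Nat.card_eq_fintype_card]
  have hcA : 2 ≤ r → 2 * Nat.card (alternatingGroup F) = r.factorial := by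
    intro h2
    have : Nontrivial F := by
      rw [← Fintype.one_lt_card_iff_nontrivial, hcF]; omega
    rw [Nat.card_eq_fintype_card, two_mul_card_alternatingGroup, Fintype.card_perm, hcF]
  have hr2 : 2 ≤ r := by omega
  have hdvd : Nat.card K ∣ Nat.card (alternatingGroup F) := by
    rw [hcard]; exact Subgroup.card_subgroup_dvd_card _
  by_cases h5 : 5 ≤ r
  · have hsimple : IsSimpleGroup (alternatingGroup F) := alternatingGroup.isSimpleGroup (by rw [Nat.card_eq_fintype_card, hcF]; exact h5)
    rcases hnorm.eq_bot_or_eq_top with h | h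
    · left
      rw [hcard, h, Subgroup.card_bot]
    · exfalso
      rw [h, Subgroup.card_top] at hcard
      rw [hcard] at hodd
      have h6 := hcA hr2
      have h7 : 4 ∣ r.factorial := (by decide : 4 ∣ Nat.factorial 4).trans (Nat.factorial_dvd_factorial (by omega))
      rw [← h6] at h7
      rcases hodd with ⟨k, hk⟩
      rw [hk] at h7
      omega
  · have hr' : r = 2 ∨ r = 3 := by omega
    rcases hr' with rfl | rfl
    · left
      have h6 := hcA hr2
      have h7 : Nat.card (alternatingGroup F) = 1 := by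
        have : Nat.factorial 2 = 2 := rfl
        omega
      rw [h7] at hdvd
      exact Nat.dvd_one.1 hdvd
    · have h6 := hcA hr2
      have h7 : Nat.card (alternatingGroup F) = 3 := by
        have : Nat.factorial 3 = 6 := rfl
        omega
      rw [h7] at hdvd
      rcases (Nat.dvd_prime Nat.prime_three).1 hdvd with h | h
      · exact Or.inl h
      · exact Or.inr ⟨rfl, h⟩

/-- in the case of order `3` some involution of the centralizer acts nontrivially -/
theorem exists_inverting (hs : s * s = 1) (hex : ∀ a, s a ≠ a → ∃ b, Dis s a b) (hK : K ≤ CC s)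
    (hN : ∀ c ∈ CC s, ∀ n ∈ K, c * n * c⁻¹ ∈ K) (hc : Nat.card K = 3) (hmove : ∃ a, s a ≠ a) :
    ∃ y ∈ CC s, y * y = 1 ∧ ∃ n ∈ K, y * n ≠ n * y := by
  have hodd : Odd (Nat.card K) := by rw [hc]; decide
  have hfix : ∀ n ∈ K, ∀ x, s x ≠ x → n x = x := fun n hn x hx => fix_moved hs hex hK hN hodd hn hx
  obtain ⟨a, ha⟩ := hmove
  have hne : ∃ n ∈ K, n ≠ 1 := by
    by_contra h
    push Not at h
    have : K = ⊥ := (Subgroup.eq_bot_iff_forall _).2 h
    rw [this, Subgroup.card_bot] at hc
    omega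
  obtain ⟨n, hn, hn1⟩ := hne
  have h3 : n ^ 3 = 1 := by
    have := pow_card_eq_one' (x := (⟨n, hn⟩ : K))
    rw [hc] at this
    exact congrArg Subtype.val this
  obtain ⟨f, hf⟩ : ∃ f, n f ≠ f := by
    by_contra h
    push Not at h
    exact hn1 (Perm.ext h)
  have hsf : s f = f := by
    by_contra h
    exact hf (hfix n hn f h)
  have hnC := (mem_CC.1 (hK hn)).1
  have hsg : s (n f) = n f := by rw [← app_comm hnC, hsf]
  have hfa : f ≠ a := fun e => ha (by rw [← e, hsf])
  have hfsa : f ≠ s a := by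
    intro e
    apply hfa
    have h1 := hsf
    rw [e, ss hs] at h1
    rw [e, ← h1]
  have hga : n f ≠ a := fun e => ha (by rw [← e, hsg])
  have hgsa : n f ≠ s a := by
    intro e
    apply hga
    have h1 := hsg
    rw [e, ss hs] at h1
    rw [e, ← h1]
  have hcomm : tr s a * swap f (n f) = swap f (n f) * tr s a :=
    swap_swap_comm hfa hfsa hga hgsa
  refine ⟨tr s a * swap f (n f), trsw_mem hs ha hsf hsg hf.symm, ?_, n, hn, ?_⟩
  · rw [mul_assoc, ← mul_assoc (swap f (n f)), ← hcomm, mul_assoc, swap_mul_self, mul_one, tr_tr]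
  · intro h
    have h1 := congrArg (fun q : Perm Ω => q f) h
    simp only [Perm.mul_apply] at h1
    rw [swap_apply_right, tr_of_ne hfa hfsa, swap_apply_left, tr_of_ne hga hgsa] at h1
    -- `n (n f) = f`
    have h2 : (n ^ 3) f = f := by rw [h3]; rfl
    have h4 : (n ^ 3) f = n (n (n f)) := rfl
    rw [h4, ← h1] at h2
    exact hf h2

end

end Cfsg.Agent.H306.Kon
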